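import Mathlib
import Cfsg.Agent.LieClassical.SLTwoUnipotent

/-!
# S5935, T6: `PSL(2, 19)` is generated by two elements of order `5` whose product is an involution
-/

set_option autoImplicit false

namespace Cfsg.Agent.H61.E7

open Matrix Cfsg.Agent.LieClassical.SLTwoUnipotent

/-- the prime field -/
abbrev K19 := ZMod 19

instance fact_nineteen : Fact (Nat.Prime 19) := ⟨by norm_num⟩

/-- the first generator, of trace `4` -/
def X : SpecialLinearGroup (Fin 2) K19 := ⟨!![0, 18; 1, 4], by rw [det_fin_two_of]; decide +kernel⟩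

/-- the second generator, of trace `4` -/
def Y : SpecialLinearGroup (Fin 2) K19 := ⟨!![1, 13; 6, 3], by rw [det_fin_two_of]; decide +kernel⟩

theorem X_pow : X ^ 5 = 1 := by decide +kernel

theorem Y_pow : Y ^ 5 = 1 := by decide +kernel

theorem XY_sq : (X * Y) ^ 2 = -1 := by decide +kernel

theorem word_u : (X * Y * Y * X * X) ^ 2 = u 5 := by decide +kernel

theorem word_l : (X * X * Y * Y * X) ^ 2 = l 14 := by decide +kernel

theorem u_pow (x : K19) : u x = (u 5) ^ (4 * x).val := by
  revert x
  decide +kernel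

theorem l_pow (x : K19) : l x = (l 14) ^ (15 * x).val := by
  revert x
  decide +kernel

theorem closure_XY : Subgroup.closure {X, Y} = ⊤ := by
  have hX : X ∈ Subgroup.closure {X, Y} := Subgroup.subset_closure (by simp)
  have hY : Y ∈ Subgroup.closure {X, Y} := Subgroup.subset_closure (by simp)
  apply eq_top_of_u_mem_of_l_mem
  · intro x
    rw [u_pow, ← word_u]
    exact pow_mem (pow_mem (mul_mem (mul_mem (mul_mem (mul_mem hX hY) hY) hX) hX) _) _
  · intro x
    rw [l_pow, ← word_l]
    exact pow_mem (pow_mem (mul_mem (mul_mem (mul_mem (mul_mem hX hX) hY) hY) hX) _) _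

/-- **`PSL(2, 19)` is a `(2, 5, 5)`-group.** -/
theorem l2_nineteen {F : Type*} [Field F] [Fintype F] (hF : Fintype.card F = 19) :
    ∃ x y : ProjectiveSpecialLinearGroup (Fin 2) F, orderOf x = 5 ∧ orderOf y = 5 ∧ (x * y) ^ 2 = 1 ∧ x * y ≠ 1 ∧
      Subgroup.closure {x, y} = ⊤ := by
  have hp : Nat.Prime 19 := by norm_num
  let e : K19 ≃+* F := ZMod.ringEquivOfPrime F hp hF
  let m : SpecialLinearGroup (Fin 2) K19 →* SpecialLinearGroup (Fin 2) F := SpecialLinearGroup.map e.toRingHom
  let f : SpecialLinearGroup (Fin 2) K19 →* ProjectiveSpecialLinearGroup (Fin 2) F := (QuotientGroup.mk' _).comp m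
  have hm : ∀ (g : SpecialLinearGroup (Fin 2) K19) (i j : Fin 2), m g i j = e (g i j) := fun _ _ _ => rfl
  have hms : Function.Surjective m := by
    intro g
    refine ⟨SpecialLinearGroup.map e.symm.toRingHom g, ?_⟩
    ext i j
    rw [hm]
    exact e.apply_symm_apply _
  have hfs : Function.Surjective f := (QuotientGroup.mk'_surjective _).comp hms
  -- an element with a nonzero entry outside the diagonal is not in the kernel
  have hne : ∀ g : SpecialLinearGroup (Fin 2) K19, g 1 0 ≠ 0 → f g ≠ 1 := by
    intro g hg h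
    have h1 : m g ∈ Subgroup.center (SpecialLinearGroup (Fin 2) F) := (QuotientGroup.eq_one_iff _).1 h
    rw [Matrix.SpecialLinearGroup.mem_center_iff] at h1
    obtain ⟨r, -, hr⟩ := h1
    have h2 : (m g : Matrix (Fin 2) (Fin 2) F) 1 0 = 0 := by
      rw [← hr]
      rfl
    have h3 : e (g 1 0) = 0 := h2
    rw [map_eq_zero_iff e e.injective] at h3
    exact hg h3
  have hneg : f (-1) = 1 := by
    refine (QuotientGroup.eq_one_iff _).2 ?_
    rw [Matrix.SpecialLinearGroup.mem_center_iff]
    refine ⟨-1, by rw [Fintype.card_fin]; norm_num, ?_⟩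
    ext i j
    rw [hm]
    fin_cases i <;> fin_cases j <;> simp
  have : Fact (Nat.Prime 5) := ⟨by norm_num⟩
  refine ⟨f X, f Y, ?_, ?_, ?_, ?_, ?_⟩
  · apply orderOf_eq_prime
    · rw [← map_pow, X_pow, map_one]
    · exact hne X (by decide +kernel)
  · apply orderOf_eq_prime
    · rw [← map_pow, Y_pow, map_one]
    · exact hne Y (by decide +kernel)
  · rw [← map_mul, ← map_pow, XY_sq, hneg]
  · rw [← map_mul]
    exact hne (X * Y) (by decide +kernel)
  · have h1 : ({f X, f Y} : Set (ProjectiveSpecialLinearGroup (Fin 2) F)) = f '' {X, Y} := by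
      rw [Set.image_pair]
    rw [h1, ← MonoidHom.map_closure, closure_XY]
    exact Subgroup.map_top_of_surjective f hfs

end Cfsg.Agent.H61.E7
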